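import Cfsg.Agent.Lib.Helper41.CS3.GoodDefs
import Cfsg.Agent.Lib.Helper71.CS3.Basics

/-!
# CS3 (S4284), part [GOOD], package [NRM]

`S` a Sylow `s`-subgroup (`s ∣ m`), `y` as in `Z2 s S y`: `S` normalizes `C(y)`.
-/

set_option autoImplicit false

namespace Cfsg.Agent.Lib.Helper45.CS3

open Cfsg.Agent.Lib.Helper41.CS3 Cfsg.Agent.Lib.Helper81.CS3

universe u

/-- [NRM]. -/
theorem pkgNrm : PkgNrm.{u} := by
  intro G _ _ m n hyp s hs hsm S y hZ σ hσ h hh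
  have hfact : Fact s.Prime := ⟨hs⟩
  have hy : y ∈ (S : Subgroup G) := hZ.mem
  have hσi : σ⁻¹ ∈ (S : Subgroup G) := Subgroup.inv_mem _ hσ
  obtain ⟨z, hz⟩ : ∃ z, z = σ⁻¹ * y * σ⁻¹⁻¹ * y⁻¹ := ⟨_, rfl⟩
  have hzS : z ∈ (S : Subgroup G) := by
    rw [hz]
    exact Subgroup.mul_mem _ (Subgroup.mul_mem _ (Subgroup.mul_mem _ hσi hy)
      (Subgroup.inv_mem _ hσi)) (Subgroup.inv_mem _ hy)
  have hzc : z ∈ Subgroup.center G :=
    Cfsg.Agent.Lib.Helper71.CS3.center_sylow_le hyp hsm S hzS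
      (fun τ hτ => by rw [hz]; exact hZ.comm σ⁻¹ hσi τ hτ)
  have hhy : y * h = h * y := Subgroup.mem_centralizer_iff.mp hh y rfl
  have key : σ⁻¹ * y * σ = z * y := by rw [hz]; group
  have hzh : h * z = z * h := Subgroup.mem_center_iff.mp hzc h
  have e1 : (z * y) * h = h * (z * y) := by
    rw [mul_assoc z y h, hhy, ← mul_assoc z h y, ← hzh, mul_assoc h z y]
  show σ * h * σ⁻¹ ∈ Subgroup.centralizer ({y} : Set G)
  rw [Subgroup.mem_centralizer_iff]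
  intro x hx
  rw [Set.mem_singleton_iff] at hx
  rw [hx]
  calc y * (σ * h * σ⁻¹) = σ * ((σ⁻¹ * y * σ) * h) * σ⁻¹ := by group
    _ = σ * ((z * y) * h) * σ⁻¹ := by rw [key]
    _ = σ * (h * (z * y)) * σ⁻¹ := by rw [e1]
    _ = σ * (h * (σ⁻¹ * y * σ)) * σ⁻¹ := by rw [key]
    _ = σ * h * σ⁻¹ * y := by group

end Cfsg.Agent.Lib.Helper45.CS3
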